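import Cfsg.Agent.H511.Cyc.LinFour
import Cfsg.Agent.S0243

/-!
# `PSL_4(3)` has no subgroup of index 80 (helper511)
-/

set_option autoImplicit false

namespace Cfsg.Agent.H511.Cyc

open Module Subgroup

variable {F : Type*} [Field F] [Fintype F]

/-- no element of order 26 -/
theorem not_comm (hF : Fintype.card F = 3) {y t : Matrix.ProjectiveSpecialLinearGroup (Fin 4) F}
    (hy : y ^ 13 = 1) (hy1 : y ≠ 1) (ht : t ^ 2 = 1) (ht1 : t ≠ 1) : y * t ≠ t * y := by
  intro hyt
  let pr := QuotientGroup.mk' (center (Matrix.SpecialLinearGroup (Fin 4) F))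
  have hpr : Function.Surjective pr := QuotientGroup.mk'_surjective _
  obtain ⟨B₀, hB₀⟩ := hpr y
  obtain ⟨A, hA⟩ := hpr t
  have hker : ∀ X : Matrix.SpecialLinearGroup (Fin 4) F, pr X = 1 → X ∈ center (Matrix.SpecialLinearGroup (Fin 4) F) :=
    fun X hX => (QuotientGroup.eq_one_iff X).1 hX
  -- central elements
  have hcen : ∀ X ∈ center (Matrix.SpecialLinearGroup (Fin 4) F), ∃ c : F, c ^ 2 = 1 ∧
      (X : Matrix (Fin 4) (Fin 4) F) = c • 1 := by
    intro X hX
    obtain ⟨c, hc, hcX⟩ := Matrix.SpecialLinearGroup.mem_center_iff.1 hX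
    have hc0 : c ≠ 0 := by
      rintro rfl
      rw [Fintype.card_fin, zero_pow (by norm_num)] at hc
      exact zero_ne_one hc
    refine ⟨c, ?_, ?_⟩
    · have := FiniteField.pow_card_sub_one_eq_one c hc0
      rwa [hF] at this
    · rw [← hcX, Matrix.scalar_apply, ← Matrix.smul_one_eq_diagonal]
  have hcen2 : ∀ X ∈ center (Matrix.SpecialLinearGroup (Fin 4) F), X ^ 2 = 1 := by
    intro X hX
    obtain ⟨c, hc, hcX⟩ := hcen X hX
    apply Subtype.ext
    rw [Matrix.SpecialLinearGroup.coe_pow, hcX, smul_pow, hc, one_smul, one_pow]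
    rfl
  -- the lift of order 13
  have hz : B₀ ^ 13 ∈ center (Matrix.SpecialLinearGroup (Fin 4) F) := hker _ (by rw [map_pow, hB₀, hy])
  set B := B₀ ^ 14 with hB
  have hprB : pr B = y := by
    rw [hB, map_pow, hB₀, pow_succ, hy, one_mul]
  have hB13 : B ^ 13 = 1 := by
    have h1 : B = B₀ ^ 13 * B₀ := by rw [hB, pow_succ]
    have h2 : B ^ 13 = (B₀ ^ 13) ^ 14 := by
      rw [hB, ← pow_mul, ← pow_mul]
    rw [h2, show (14 : ℕ) = 2 * 7 from rfl, pow_mul, hcen2 _ hz, one_pow]
  have hA2 : A ^ 2 ∈ center (Matrix.SpecialLinearGroup (Fin 4) F) := hker _ (by rw [map_pow, hA, ht])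
  -- they commute
  have hw : A * B * A⁻¹ * B⁻¹ ∈ center (Matrix.SpecialLinearGroup (Fin 4) F) := hker _ (by
    rw [map_mul, map_mul, map_mul, map_inv, map_inv, hprB, hA, ← hyt]; group)
  have hAB : A * B = B * A := by
    set w := A * B * A⁻¹ * B⁻¹ with hwdef
    have h1 : A * B * A⁻¹ = w * B := by rw [hwdef]; group
    have h2 : (A * B * A⁻¹) ^ 13 = 1 := by
      have h3 : (A * B * A⁻¹) ^ 13 = A * B ^ 13 * A⁻¹ := by
        have := map_pow (MulAut.conj A) B 13
        simp only [MulAut.conj_apply] at this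
        exact this.symm
      rw [h3, hB13, mul_one, mul_inv_cancel]
    have hcomm : Commute w B := (mem_center_iff.1 hw B).symm
    rw [h1, hcomm.mul_pow, hB13, mul_one, show (13 : ℕ) = 2 * 6 + 1 from rfl, pow_add, pow_mul, hcen2 _ hw, one_pow, one_mul,
      pow_one] at h2
    rw [h2, one_mul] at h1
    calc A * B = A * B * A⁻¹ * A := by group
      _ = B * A := by rw [h1]
  -- linear maps
  let φ : Matrix (Fin 4) (Fin 4) F ≃ₐ[F] End F (Fin 4 → F) := Matrix.toLinAlgEquiv'
  have hφ : ∀ X : Matrix.SpecialLinearGroup (Fin 4) F, LinearMap.det (φ X) = 1 := by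
    intro X
    have h1 : LinearMap.det (Matrix.toLin' (X : Matrix (Fin 4) (Fin 4) F)) = (X : Matrix (Fin 4) (Fin 4) F).det :=
      LinearMap.det_toLin' _
    rw [X.2] at h1
    exact h1
  obtain ⟨c, hc, hcA⟩ := hcen _ hA2
  have ha : (φ A) ^ 2 = 1 ∨ (φ A) ^ 2 = -1 := by
    have h1 : (φ A) ^ 2 = c • 1 := by
      rw [← map_pow, ← Matrix.SpecialLinearGroup.coe_pow, hcA, map_smul, map_one]
    have h9 : c * c = 1 := by rw [← sq]; exact hc
    rcases mul_self_eq_one_iff.1 h9 with h | h
    · left; rw [h1, h, one_smul]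
    · right; rw [h1, h]; exact neg_one_smul F (1 : End F (Fin 4 → F))
  have key := eq_one_or_neg (V := Fin 4 → F) hF (by rw [finrank_fintype_fun_eq_card, Fintype.card_fin]) (a := φ A) (b := φ B)
    (by rw [← map_pow, ← Matrix.SpecialLinearGroup.coe_pow, hB13, Matrix.SpecialLinearGroup.coe_one, map_one])
    (by
      intro h1
      have h2 : (B : Matrix (Fin 4) (Fin 4) F) = 1 := φ.injective (by rw [h1, map_one])
      apply hy1
      have h3 : B = 1 := Subtype.ext h2
      rw [← hprB, h3, map_one])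
    (by rw [← map_mul, ← map_mul, ← Matrix.SpecialLinearGroup.coe_mul, hAB, Matrix.SpecialLinearGroup.coe_mul])
    ha (hφ A)
  apply ht1
  rw [← hA]
  apply (QuotientGroup.eq_one_iff A).2
  rw [Matrix.SpecialLinearGroup.mem_center_iff]
  rcases key with h | h
  · refine ⟨1, one_pow _, ?_⟩
    have h2 : (A : Matrix (Fin 4) (Fin 4) F) = 1 := φ.injective (by rw [h, map_one])
    rw [h2, map_one]
  · refine ⟨-1, by rw [Fintype.card_fin]; norm_num, ?_⟩
    have h2 : (A : Matrix (Fin 4) (Fin 4) F) = -1 := φ.injective (by rw [h, map_neg, map_one])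
    rw [h2, map_neg, map_one]

theorem card_psl (hF : Fintype.card F = 3) : Nat.card (Matrix.ProjectiveSpecialLinearGroup (Fin 4) F) = 6065280 := by
  have h := Cfsg.Agent.S0243.result (F := F) (q := 3) hF 4 (by norm_num)
  have h1 : Nat.gcd 4 (3 - 1) = 2 := by decide
  have h2 : ∏ i : Fin 4, (3 ^ 4 - 3 ^ (i : ℕ)) = 24261120 := by decide
  rw [h1, h2] at h
  omega

theorem num3 : ∀ n ∈ Nat.divisors 5832, n % 13 = 1 → n ∣ 729 := by decide +kernel

/-- no subgroup of index 80 -/
theorem index_ne (hF : Fintype.card F = 3) (H : Subgroup (Matrix.ProjectiveSpecialLinearGroup (Fin 4) F)) :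
    H.index ≠ 80 := by
  intro hi
  have hT := card_psl hF
  have hfin : Finite (Matrix.ProjectiveSpecialLinearGroup (Fin 4) F) := Nat.finite_of_card_ne_zero (by rw [hT]; norm_num)
  have hH : Nat.card H = 75816 := by
    have := H.card_mul_index
    rw [hi, hT] at this
    omega
  have hp : Fact (Nat.Prime 13) := ⟨by norm_num⟩
  let P : Sylow 13 H := default
  have hP : Nat.card P = 13 := by
    rw [Sylow.card_eq_multiplicity, hH]
    have h1 : Nat.factorization 75816 13 = 1 := by
      have h2 : (75816 : ℕ) = 13 * 5832 := by norm_num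
      rw [h2, Nat.factorization_mul (by norm_num) (by norm_num), Finsupp.add_apply, Nat.Prime.factorization_self (by norm_num),
        Nat.factorization_eq_zero_of_not_dvd (by norm_num)]
    rw [h1, pow_one]
  have hidx : (normalizer ((P : Subgroup H) : Set H)).index ≡ 1 [MOD 13] := by
    have h1 := card_sylow_modEq_one 13 H
    rwa [P.card_eq_index_normalizer] at h1
  set N := normalizer ((P : Subgroup H) : Set H) with hN
  have hPN : (P : Subgroup H) ≤ N := le_normalizer
  have hcardN := N.card_mul_index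
  rw [hH] at hcardN
  have h13 : 13 ∣ Nat.card N := by
    have := card_dvd_of_le hPN
    rwa [hP] at this
  obtain ⟨c, hc⟩ := h13
  have h2 : c * N.index = 5832 := by
    rw [hc] at hcardN
    have : 13 * (c * N.index) = 13 * 5832 := by rw [← mul_assoc, hcardN]
    omega
  have h3 : N.index ∣ 729 := num3 _ (Nat.mem_divisors.2 ⟨Dvd.intro_left c h2, by norm_num⟩) hidx
  have h4 : 8 ∣ Nat.card N := by
    have h5 : 8 ∣ c * N.index := by rw [h2]; norm_num
    have h6 : Nat.Coprime 8 N.index := Nat.Coprime.coprime_dvd_right h3 (by norm_num)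
    rw [hc]
    exact (h6.dvd_of_dvd_mul_right h5).mul_left _
  -- an involution centralising `P`
  let f := (P : Subgroup H).normalizerMonoidHom
  have hcyc : IsCyclic (P : Subgroup H) := isCyclic_of_prime_card hP
  have hr : Nat.card f.range ∣ 12 := by
    have h5 : Nat.card (MulAut (P : Subgroup H)) = 12 := by
      rw [IsCyclic.card_mulAut]
      have h6 : Nat.card (P : Subgroup H) = 13 := hP
      rw [h6]
      exact Nat.totient_prime (by norm_num)
    rw [← h5]
    exact card_subgroup_dvd_card _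
  have hk : Nat.card N = Nat.card f.ker * Nat.card f.range := by
    rw [card_eq_card_quotient_mul_card_subgroup f.ker, mul_comm,
      Nat.card_congr (QuotientGroup.quotientKerEquivRange f).toEquiv]
  have hcen : 2 ∣ Nat.card f.ker := by
    by_contra h5
    have h6 : Nat.Coprime 8 (Nat.card f.ker) := by
      have : Nat.Coprime 2 (Nat.card f.ker) := (Nat.Prime.coprime_iff_not_dvd Nat.prime_two).2 h5
      exact this.pow_left 3
    rw [hk] at h4
    have h7 := (h6.dvd_of_dvd_mul_left h4).trans hr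
    omega
  have h2p : Fact (Nat.Prime 2) := ⟨Nat.prime_two⟩
  obtain ⟨t, ht⟩ := exists_prime_orderOf_dvd_card' 2 hcen
  obtain ⟨y, hy⟩ := exists_prime_orderOf_dvd_card' (G := (P : Subgroup H)) 13 (by rw [show Nat.card (P : Subgroup H) = 13 from hP])
  have ht' : orderOf (((t : N) : H) : Matrix.ProjectiveSpecialLinearGroup (Fin 4) F) = 2 := by
    rw [orderOf_coe, orderOf_coe, orderOf_coe, ht]
  have hy' : orderOf ((y : H) : Matrix.ProjectiveSpecialLinearGroup (Fin 4) F) = 13 := by
    rw [orderOf_coe, orderOf_coe, hy]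
  refine not_comm hF (y := ((y : H) : Matrix.ProjectiveSpecialLinearGroup (Fin 4) F))
    (t := (((t : N) : H) : Matrix.ProjectiveSpecialLinearGroup (Fin 4) F)) (orderOf_dvd_iff_pow_eq_one.1 (dvd_of_eq hy'))
    (fun h => ?_) (orderOf_dvd_iff_pow_eq_one.1 (dvd_of_eq ht')) (fun h => ?_) ?_
  · rw [h, orderOf_one] at hy'
    omega
  · rw [h, orderOf_one] at ht'
    omega
  · have h5 : f t = 1 := t.2
    have h6 := congrArg (fun α : MulAut (P : Subgroup H) => ((α y : (P : Subgroup H)) : H)) h5
    have h7 : ((t : N) : H) * (y : H) * ((t : N) : H)⁻¹ = y := h6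
    have h8 : (y : H) * ((t : N) : H) = ((t : N) : H) * (y : H) := by
      nth_rewrite 1 [← h7]
      group
    exact congrArg Subtype.val h8

end Cfsg.Agent.H511.Cyc
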